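import Cfsg.Agent.Lib.J1.X120

/-! More computations in `Z₂ × A₅`. -/

set_option autoImplicit false
set_option synthInstance.maxSize 2000

namespace Cfsg.Lib.J1.X120

theorem exp30 : ∀ p : X120, p ^ 30 = 1 := by decide +kernel

theorem span : ∀ p : X120, p * v = v * p → p ≠ 1 → p ≠ c → ∀ q : X120, q * v = v * q →
    ∃ a b d e : Fin 2, q = c ^ (a : ℕ) * p ^ (b : ℕ) * (y * p * y⁻¹) ^ (d : ℕ) *
      (y⁻¹ * p * y) ^ (e : ℕ) := by decide +kernel

theorem conj_v : ∀ q : X120, q * q = 1 → q ≠ 1 → q ≠ c →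
    ∃ w : X120, w * q * w⁻¹ = v ∨ w * q * w⁻¹ = c * v := by decide +kernel

theorem conj_v' : ∀ q : X120, q * q = 1 → q ≠ 1 → q.1 = 1 → ∃ w : X120, w * q * w⁻¹ = v := by
  decide +kernel

theorem V_cases : ∀ p : X120, p * v = v * p → p ≠ 1 → p.1 = 1 →
    p = v ∨ p = y⁻¹ * v * y ∨ p = y * v * y⁻¹ := by decide +kernel

theorem V_comm : ∀ p : X120, p * v = v * p → p.1 = 1 → ∃ b : X120, p = y * b * y⁻¹ * b⁻¹ := by
  decide +kernel

theorem inner : ∀ p : X120, p ^ 3 = 1 → p⁻¹ * v * p = y⁻¹ * v * y → ∀ q : X120, q * q = 1 →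
    q * p * q * p = 1 → (q * v) ^ 3 = 1 →
      ∃ w : X120, w * v = v * w ∧ p = w * y * w⁻¹ ∧ q = w * s * w⁻¹ := by decide +kernel

theorem cube : ∀ p : X120, p * v = v * p → (y * p) ^ 3 * v = v * (y * p) ^ 3 := by decide +kernel

theorem cube' : ∀ p : X120, p * v = v * p → (y * p) ^ 3 = 1 →
    ∃ w : X120, w * v = v * w ∧ y * p = w * y * w⁻¹ := by decide +kernel

theorem S_gen : ∀ p : X120, p * v = v * p →
    ∃ a b d : Fin 2, p = c ^ (a : ℕ) * v ^ (b : ℕ) * (y⁻¹ * v * y) ^ (d : ℕ) := by decide +kernel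

end Cfsg.Lib.J1.X120
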