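import Cfsg.Agent.Lib.J1.Main
import Cfsg.Agent.Lib.J1.X120b

/-! The weak closure of a `2`-central involution in its centraliser is `Z₂ × A₅`: local analysis. -/

set_option autoImplicit false

namespace Cfsg.Lib.J1

open Subgroup X120

variable {G : Type*} [Group G]

/-- a model of the weak closure of `ψ c` in its centraliser -/
structure Weak (ψ : X120 →* G) : Prop where
  inj : Function.Injective ψ
  wk : ∀ g, g * ψ c * g⁻¹ * ψ c = ψ c * (g * ψ c * g⁻¹) → ∃ p, ψ p = g * ψ c * g⁻¹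
  nrm : ∀ g, g * ψ c = ψ c * g → ∀ p, ∃ q, ψ q = g * ψ p * g⁻¹
  odd : ¬ 2 ∣ (centralizer ({ψ c} : Set G)).index
  ex : ∃ g, g * ψ c * g⁻¹ ≠ ψ c ∧ g * ψ c * g⁻¹ * ψ c = ψ c * (g * ψ c * g⁻¹)

theorem S8_comm {ψ : X120 →* G} {a b : G} (ha : a ∈ S8 ψ) (hb : b ∈ S8 ψ) : a * b = b * a := by
  obtain ⟨p, hp, rfl⟩ := mem_S8.mp ha
  obtain ⟨q, hq, rfl⟩ := mem_S8.mp hb
  rw [← map_mul, S_comm p hp q hq, map_mul]

theorem exists_comm_eq [Finite G] {T : Subgroup G} {g : G} (hg : g ∈ normalizer (T : Set G))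
    (hf : ∀ a ∈ T, a * g = g * a → a = 1) {τ : G} (hτ : τ ∈ T) :
    ∃ σ ∈ T, g⁻¹ * σ⁻¹ * g * σ = τ := by
  let f : T → T := fun σ => ⟨g⁻¹ * (σ : G)⁻¹ * g * σ,
    mul_mem (h9_conj_mem_of_mem_normalizer' hg (inv_mem σ.2)) σ.2⟩
  have hinj : Function.Injective f := fun σ ρ h => by
    have h1 : g⁻¹ * (σ : G)⁻¹ * g * σ = g⁻¹ * (ρ : G)⁻¹ * g * ρ := congrArg Subtype.val h
    have h2 := hf (ρ * (σ : G)⁻¹) (mul_mem ρ.2 (inv_mem σ.2)) (by
      calc _ = ρ * g * (g⁻¹ * (σ : G)⁻¹ * g * σ) * (σ : G)⁻¹ := by group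
        _ = _ := by rw [h1]; group)
    exact Subtype.ext (mul_inv_eq_one.mp h2).symm
  obtain ⟨σ, h⟩ := Finite.injective_iff_surjective.mp hinj ⟨τ, hτ⟩
  exact ⟨σ, σ.2, congrArg Subtype.val h⟩

namespace Weak

variable {ψ : X120 →* G} (P : Weak ψ)
include P

theorem ne_one {p : X120} (h : p ≠ 1) : ψ p ≠ 1 := fun e => h (P.inj (by rw [e, map_one]))

theorem card_S : Nat.card (S8 ψ) = 8 := by
  rw [S8, card_map_of_injective P.inj, card_v]

theorem comp (e : X120 ≃* X120) (he : e c = c) : Weak (ψ.comp e.toMonoidHom) := by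
  have h : (ψ.comp e.toMonoidHom) c = ψ c := congrArg ψ he
  refine ⟨P.inj.comp e.injective, fun g => ?_, fun g => ?_, h ▸ P.odd, h ▸ P.ex⟩
  · rw [h]
    intro hg
    obtain ⟨p, hp⟩ := P.wk g hg
    exact ⟨e.symm p, by simpa using hp⟩
  · rw [h]
    intro hg p
    obtain ⟨q, hq⟩ := P.nrm g hg (e p)
    exact ⟨e.symm q, by simpa using hq⟩

theorem fst_eq {g : G} (hg : g * ψ c = ψ c * g) {p q : X120} (hp : p * v = v * p) (h1 : p.1 = 1)
    (h : ψ q = g * ψ p * g⁻¹) : q.1 = 1 := by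
  obtain ⟨b, rfl⟩ := V_comm p hp h1
  obtain ⟨y', hy⟩ := P.nrm g hg y
  obtain ⟨b', hb⟩ := P.nrm g hg b
  have : q = y' * b' * y'⁻¹ * b'⁻¹ := P.inj (by
    simp only [map_mul, map_inv, h, hy, hb]; group)
  rw [this]
  show y'.1 * b'.1 * y'.1⁻¹ * b'.1⁻¹ = 1
  rw [mul_comm y'.1]; simp

variable [Finite G]

theorem mem_N {g : G} (h1 : g * ψ c = ψ c * g) (h2 : g * ψ v = ψ v * g) :
    g ∈ normalizer (S8 ψ : Set G) := by
  refine h9_mem_normalizer_of_conj_mem fun a ha => ?_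
  obtain ⟨p, hp, rfl⟩ := mem_S8.mp ha
  obtain ⟨q, hq⟩ := P.nrm g h1 p
  refine mem_S8.mpr ⟨q, P.inj ?_, hq⟩
  rw [map_mul, map_mul, hq]
  calc _ = g * (ψ p * ψ v) * g⁻¹ := by rw [mul_assoc, (Commute.inv_left h2).eq]; group
    _ = _ := by rw [← map_mul, hp, map_mul, ← mul_assoc, h2]; group

theorem exists_N : ∃ n ∈ normalizer (S8 ψ : Set G), n * ψ c * n⁻¹ ≠ ψ c := by
  have hinv : ∀ g p, ψ p = g * ψ c * g⁻¹ → p * p = 1 ∧ p ≠ 1 := fun g p h => by
    have := inv2_conj (u := ψ c) ⟨Pre.tt, P.ne_one (by decide +kernel)⟩ g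
    rw [← h] at this
    exact ⟨P.inj (by rw [map_mul, this.1, map_one]), fun e => this.2 (by rw [e, map_one])⟩
  obtain ⟨g, p, hp, hpc, e⟩ : ∃ g p, p * v = v * p ∧ p ≠ c ∧ ψ p = g * ψ c * g⁻¹ := by
    obtain ⟨g, h1, h2⟩ := P.ex
    obtain ⟨q, hq⟩ := P.wk g h2
    obtain ⟨w, hw⟩ := conj_v q (hinv g q hq).1 (hinv g q hq).2 (fun e => h1 (by rw [← hq, e]))
    refine ⟨ψ w * g, w * q * w⁻¹, ?_, ?_, by simp only [map_mul, map_inv, hq]; group⟩ <;>
      rcases hw with h | h <;> rw [h] <;> decide +kernel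
  have hB : ∀ h : G, h * ψ c * h⁻¹ ∈ S8 ψ →
      h * ψ c * h⁻¹ ∈ ψ.range.map (MulAut.conj g).toMonoidHom := fun h hh => by
    rw [h9_mem_conj_iff]
    have h1 := S8_comm hh (mem_S8.mpr ⟨p, hp, rfl⟩)
    obtain ⟨q, hq⟩ := P.wk (g⁻¹ * h) (by
      rw [e] at h1
      calc _ = g⁻¹ * (h * ψ c * h⁻¹ * (g * ψ c * g⁻¹)) * g := by group
        _ = _ := by rw [h1]; group)
    exact ⟨q, by rw [hq]; group⟩
  have hle : ∀ q, q * v = v * q → ∃ r, ψ r = g⁻¹ * ψ q * g := fun q hq => by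
    obtain ⟨a, b, d, f, rfl⟩ := span p hp (hinv g p e).2 hpc q hq
    have h0 := hB 1 (by simpa using Setup.t_mem)
    have h1 := hB g (e ▸ mem_S8.mpr ⟨p, hp, rfl⟩)
    have h2 := hB (ψ y * g) (mem_S8.mpr ⟨_, S_y p hp, by simp only [map_mul, map_inv, e]; group⟩)
    have h3 := hB ((ψ y)⁻¹ * g) (by
      have := h9_conj_mem_of_mem_normalizer' (Setup.y_mem (ψ := ψ)) (mem_S8.mpr ⟨p, hp, rfl⟩)
      rw [e] at this
      convert this using 1; group)
    refine (h9_mem_conj_iff ψ.range g _).mp ?_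
    simp only [map_mul, map_pow, map_inv, e]
    refine mul_mem (mul_mem (mul_mem (pow_mem (by simpa using h0) _) (pow_mem h1 _))
      (pow_mem ?_ _)) (pow_mem ?_ _)
    · convert h2 using 1; group
    · convert h3 using 1; group
  obtain ⟨a, ha⟩ := hle c (by decide +kernel)
  have ha' := hinv g⁻¹ a (by rw [ha, inv_inv])
  have hac : a ≠ c := fun h => hpc (P.inj (by rw [e]; nth_rw 1 [← h, ha]; group))
  obtain ⟨w, hw⟩ := conj_v a ha'.1 ha'.2 hac
  have e2 : ψ w * g⁻¹ * ψ c * (ψ w * g⁻¹)⁻¹ = ψ (w * a * w⁻¹) := by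
    simp only [map_mul, map_inv, ha]; group
  refine ⟨ψ w * g⁻¹, h9_mem_normalizer_of_conj_mem fun b hb => ?_, fun h => ?_⟩
  · obtain ⟨q, hq, rfl⟩ := mem_S8.mp hb
    obtain ⟨r, hr⟩ := hle q hq
    refine mem_S8.mpr ⟨w * r * w⁻¹, ?_, by simp only [map_mul, map_inv, hr]; group⟩
    have h1 : r * a = a * r := P.inj (by
      rw [map_mul, map_mul, hr, ha]
      calc _ = g⁻¹ * (ψ q * ψ c) * g := by group
        _ = _ := by rw [Pre.comm]; group)
    have h2 : w * r * w⁻¹ * (w * a * w⁻¹) = w * a * w⁻¹ * (w * r * w⁻¹) := by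
      calc _ = w * (r * a) * w⁻¹ := by group
        _ = _ := by rw [h1]; group
    rcases hw with h | h <;> rw [h] at h2
    · exact h2
    · rwa [← mul_assoc, comm_c, mul_assoc c, mul_assoc c, mul_right_inj] at h2
  · rw [e2] at h
    have := P.inj h
    rcases hw with h | h <;> rw [h] at this <;> exact absurd this (by decide +kernel)

theorem orbit_t : {b | ∃ l ∈ normalizer (S8 ψ : Set G), l * ψ c * l⁻¹ = b} = (S8 ψ : Set G) \ {1} := by
  set N := normalizer (S8 ψ : Set G) with hN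
  set O := {b | ∃ l ∈ N, l * ψ c * l⁻¹ = b} with hO
  have h1 := ncard_conj_mul' N (ψ c)
  rw [← hO] at h1
  have hc1 : ψ c ≠ 1 := P.ne_one (by decide +kernel)
  have hOS : O ⊆ (S8 ψ : Set G) \ {1} := by
    rintro _ ⟨l, hl, rfl⟩
    exact ⟨h9_conj_mem_of_mem_normalizer hl Setup.t_mem, fun h => hc1 (by simpa using h)⟩
  have h7 : ((S8 ψ : Set G) \ {1}).ncard = 7 := by
    have h8 : (S8 ψ : Set G).ncard = 8 := P.card_S
    rw [Set.ncard_diff_singleton_of_mem (by simp), h8]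
  have hle : O.ncard ≤ 7 := h7 ▸ Set.ncard_le_ncard hOS
  have htO : ψ c ∈ O := ⟨1, one_mem _, by simp⟩
  have hne : O.ncard ≠ 1 := fun h => by
    obtain ⟨a, ha⟩ := Set.ncard_eq_one.mp h
    obtain ⟨n, hn, e⟩ := P.exists_N
    have h3 : n * ψ c * n⁻¹ ∈ O := ⟨n, hn, rfl⟩
    rw [ha] at h3 htO
    exact e (h3.trans htO.symm)
  have hodd : ¬ 2 ∣ O.ncard := fun h => by
    set C := centralizer ({ψ c} : Set G)
    have hTC : S8 ψ ≤ C := fun a ha => mem_centralizer_singleton_iff.mpr (S8_comm ha Setup.t_mem)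
    obtain ⟨Q, hQ⟩ := ((IsPGroup.of_card (p := 2) (n := 3) P.card_S).comap_subtype
      (K := C)).exists_le_sylow
    have hS : (Q : Subgroup C).map C.subtype ≤ N ⊓ C := by
      rintro _ ⟨g, hg, rfl⟩
      refine ⟨h9_mem_normalizer_of_conj_mem fun a ha => ?_, g.2⟩
      obtain ⟨p, hp, rfl⟩ := mem_S8.mp ha
      obtain ⟨q, hq⟩ := P.nrm g (mem_centralizer_singleton_iff.mp g.2) p
      refine mem_S8.mpr ⟨q, ?_, hq⟩
      have hv : ψ v ∈ S8 ψ := mem_S8.mpr ⟨v, rfl, rfl⟩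
      obtain ⟨k, hk⟩ := Q.isPGroup' ⟨g * ⟨_, hTC ha⟩ * g⁻¹ * ⟨_, hTC hv⟩,
        mul_mem (mul_mem (mul_mem hg (hQ ha)) (inv_mem hg)) (hQ hv)⟩
      have hk' : (q * v) ^ 2 ^ k = 1 := P.inj (by
        rw [map_pow, map_mul, hq, map_one]
        exact congrArg (fun z : Q => ((z : C) : G)) hk)
      have h2 : (q * v) ^ 2 = 1 := by
        have := pow_gcd_eq_one.mpr ⟨hk', exp30 (q * v)⟩
        have h3 : Nat.gcd (2 ^ k) 30 ∣ 2 := by
          rw [show 30 = 2 * 15 by rfl, Nat.Coprime.gcd_mul_right_cancel_right]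
          · exact Nat.gcd_dvd_right _ _
          · exact (Nat.Coprime.pow_right k (by norm_num))
        exact orderOf_dvd_iff_pow_eq_one.mp ((orderOf_dvd_of_pow_eq_one this).trans h3)
      refine h9_comm_of_sq (P.inj ?_) (by decide +kernel) (by rwa [pow_two] at h2)
      rw [map_mul, hq, show (g : G) * ψ p * (g : G)⁻¹ * (g * ψ p * (g : G)⁻¹) =
        g * (ψ p * ψ p) * (g : G)⁻¹ by group, ← map_mul, S_sq p hp]; simp
    have h2 := index_dvd_of_le hS
    rw [index_map_subtype] at h2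
    have h3 : 2 ∣ (N ⊓ C).index := by
      refine h.trans ⟨N.index, Nat.eq_of_mul_eq_mul_left (Nat.card_pos (α := ↥(N ⊓ C))) ?_⟩
      rw [card_mul_index, ← mul_assoc, mul_comm _ O.ncard, h1, card_mul_index]
    rcases (Nat.Prime.dvd_mul Nat.prime_two).mp (h3.trans h2) with h4 | h4
    · exact Q.not_dvd_index h4
    · exact P.odd h4
  have : Fact (Nat.Prime 3) := Nat.fact_prime_three
  have h3 := prime_dvd_burnside (a := ψ y) ((orderOf_injective ψ P.inj y).trans ord_y) O (by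
    rintro _ ⟨l, hl, rfl⟩
    exact ⟨_, mul_mem Setup.y_mem hl, by group⟩)
  have hfix : {u | u ∈ O ∧ ψ y * u = u * ψ y} = {ψ c} := by
    ext u
    refine ⟨fun ⟨hu, e⟩ => ?_, fun h => h ▸ ⟨htO, Pre.comm y⟩⟩
    obtain ⟨p, hp, rfl⟩ := mem_S8.mp (hOS hu).1
    rcases central p hp (P.inj (by simpa using e.symm)) with rfl | rfl
    · exact absurd (map_one ψ) (hOS hu).2
    · rfl
  rw [hfix, Set.ncard_singleton] at h3
  exact Set.eq_of_subset_of_ncard_le hOS (by omega)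

theorem card_N : ∃ m, 0 < m ∧ m ≤ 6 ∧
    Nat.card (normalizer (S8 ψ : Set G) ⊓ centralizer {ψ c} : Subgroup G) =
      m * Nat.card (centralizer (S8 ψ : Set G)) ∧
    Nat.card (normalizer (S8 ψ : Set G)) = 7 * (m * Nat.card (centralizer (S8 ψ : Set G))) := by
  set N := normalizer (S8 ψ : Set G) with hN
  have h1 := ncard_conj_mul' N (ψ c)
  have h8 : (S8 ψ : Set G).ncard = 8 := P.card_S
  rw [P.orbit_t, Set.ncard_diff_singleton_of_mem (by simp), h8] at h1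
  have h2 := ncard_conj_mul' (N ⊓ centralizer {ψ c}) (ψ v)
  have h3 := ncard_conj_mul' (N ⊓ centralizer {ψ c} ⊓ centralizer {ψ v}) (ψ (y⁻¹ * v * y))
  have hV : ∀ l ∈ N ⊓ centralizer {ψ c}, ∀ p, p * v = v * p → p ≠ 1 → p.1 = 1 →
      l * ψ p * l⁻¹ ∈ ({ψ v, ψ (y⁻¹ * v * y), ψ (y * v * y⁻¹)} : Set G) := by
    intro l hl p hp hp1 hp2
    obtain ⟨q, hq, e⟩ := mem_S8.mp (h9_conj_mem_of_mem_normalizer hl.1 (mem_S8.mpr ⟨p, hp, rfl⟩))
    have := P.fst_eq (mem_centralizer_singleton_iff.mp hl.2) hp hp2 e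
    rw [← e]
    rcases V_cases q hq (fun h => P.ne_one hp1 (by simpa [h] using e.symm)) this with h | h | h <;>
      rw [h] <;> simp only [Set.mem_insert_iff, Set.mem_singleton_iff, true_or, or_true]
  have ha : {b | ∃ l ∈ N ⊓ centralizer {ψ c}, l * ψ v * l⁻¹ = b}.ncard ≤ 3 := by
    refine (Set.ncard_le_ncard (t := {ψ v, ψ (y⁻¹ * v * y), ψ (y * v * y⁻¹)}) ?_).trans ?_
    · rintro _ ⟨l, hl, rfl⟩
      exact hV l hl v rfl (by decide +kernel) (by decide +kernel)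
    · exact (Set.ncard_insert_le _ _).trans (Nat.succ_le_succ ((Set.ncard_insert_le _ _).trans (by simp)))
  have hb : {b | ∃ l ∈ N ⊓ centralizer {ψ c} ⊓ centralizer {ψ v},
      l * ψ (y⁻¹ * v * y) * l⁻¹ = b}.ncard ≤ 2 := by
    refine (Set.ncard_le_ncard (t := {ψ (y⁻¹ * v * y), ψ (y * v * y⁻¹)}) ?_).trans
      ((Set.ncard_insert_le _ _).trans (by simp))
    rintro _ ⟨l, hl, rfl⟩
    refine (hV l hl.1 _ (by decide +kernel) (by decide +kernel) (by decide +kernel)).resolve_left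
      fun h => ?_
    rw [mul_inv_eq_iff_eq_mul, ← mem_centralizer_singleton_iff.mp hl.2, mul_right_inj] at h
    exact absurd (P.inj h) (by decide +kernel)
  have h4 : (N ⊓ centralizer {ψ c} ⊓ centralizer {ψ v} ⊓ centralizer {ψ (y⁻¹ * v * y)} :
      Subgroup G) = centralizer (S8 ψ : Set G) := by
    apply le_antisymm
    · rintro g ⟨⟨⟨-, a1⟩, a2⟩, a3⟩ b hb
      obtain ⟨p, hp, rfl⟩ := mem_S8.mp hb
      obtain ⟨i, j, k, rfl⟩ := S_gen p hp
      have b1 : Commute (ψ c) g := (mem_centralizer_singleton_iff.mp a1).symm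
      have b2 : Commute (ψ v) g := (mem_centralizer_singleton_iff.mp a2).symm
      have b3 : Commute (ψ (y⁻¹ * v * y)) g := (mem_centralizer_singleton_iff.mp a3).symm
      rw [map_mul, map_mul, map_pow, map_pow, map_pow]
      exact ((b1.pow_left _).mul_left (b2.pow_left _)).mul_left (b3.pow_left _)
    · intro g hg
      have := fun p hp => mem_centralizer_singleton_iff.mpr
        (hg _ (mem_S8.mpr ⟨p, hp, rfl⟩ : ψ p ∈ S8 ψ)).symm
      exact ⟨⟨⟨centralizer_le_normalizer _ hg, this c (by decide +kernel)⟩, this v rfl⟩,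
        this _ (by decide +kernel)⟩
  rw [h4] at h3
  rw [← h3, ← mul_assoc] at h2
  have hpos : 0 < Nat.card (N ⊓ centralizer {ψ c} : Subgroup G) := Nat.card_pos
  refine ⟨_, Nat.pos_of_ne_zero fun h => ?_, Nat.mul_le_mul ha hb, h2.symm, by rw [h2, h1]⟩
  rw [h, zero_mul] at h2
  omega

theorem split {g : G} (hg : g ∈ centralizer (S8 ψ : Set G)) :
    ∃ w, w * v = v * w ∧ ∀ p, (ψ w)⁻¹ * g * ψ p = ψ p * ((ψ w)⁻¹ * g) := by
  have hc := fun p hp => (hg _ (mem_S8.mpr ⟨p, hp, rfl⟩ : ψ p ∈ S8 ψ)).symm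
  obtain ⟨p, hp⟩ := P.nrm g (hc c (by decide +kernel)) y
  obtain ⟨q, hq⟩ := P.nrm g (hc c (by decide +kernel)) s
  have hv : ψ v = g * ψ v * g⁻¹ := by rw [hc v rfl]; group
  have key : ∀ a b : X120, ψ a = g * ψ b * g⁻¹ → b = 1 → a = 1 := fun a b h hb =>
    P.inj (by rw [h, hb]; simp)
  obtain ⟨w, hw, e1, e2⟩ := inner p
    (key _ (y ^ 3) (by rw [map_pow, map_pow, hp, conj_pow]) (by decide +kernel))
    (P.inj (by
      have := hc (y⁻¹ * v * y) (by decide +kernel)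
      rw [← mul_inv_eq_iff_eq_mul] at this
      rw [← this]
      simp only [map_mul, map_inv, hp]
      nth_rw 1 [hv]; group)) q
    (key _ (s * s) (by simp only [map_mul, hq]; group) (by decide +kernel))
    (key _ (s * y * s * y) (by simp only [map_mul, hq, hp]; group) (by decide +kernel))
    (key _ ((s * v) ^ 3) (by
      rw [map_pow, map_pow, ← conj_pow, map_mul, map_mul, hq]; nth_rw 1 [hv]; group)
      (by decide +kernel))
  refine ⟨w, hw, fun r => (mem_centralizer_singleton_iff.mp ?_).symm⟩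
  have hwg : ∀ a, a * v = v * a → ψ a ∈ centralizer {(ψ w)⁻¹ * g} := fun a ha => by
    have b1 : Commute (ψ a) g := (hc a ha).symm
    have b2 : Commute (ψ a) (ψ w) := S8_comm (mem_S8.mpr ⟨a, ha, rfl⟩) (mem_S8.mpr ⟨w, hw, rfl⟩)
    exact mem_centralizer_singleton_iff.mpr (b2.inv_right.mul_right b1)
  refine mem_of_gens (hwg c (by decide +kernel)) (hwg v rfl)
    (mem_centralizer_singleton_iff.mpr ?_) (mem_centralizer_singleton_iff.mpr ?_) r
  · rw [e1, map_mul, map_mul, map_inv] at hp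
    calc _ = (ψ w)⁻¹ * (ψ w * ψ y * (ψ w)⁻¹) * g := by group
      _ = _ := by rw [hp]; group
  · rw [e2, map_mul, map_mul, map_inv] at hq
    calc _ = (ψ w)⁻¹ * (ψ w * ψ s * (ψ w)⁻¹) * g := by group
      _ = _ := by rw [hq]; group

end Weak

end Cfsg.Lib.J1
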