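import Cfsg.Agent.Lib.J1.Weak

/-! The weak closure of a `2`-central involution in its centraliser is `Z₂ × A₅`: the element of
order seven and the structure of the centraliser. -/

set_option autoImplicit false

namespace Cfsg.Lib.J1

open Subgroup X120

variable {G : Type*} [Group G]

/-- properties of the element of order `7` -/
structure Xd (T : Subgroup G) (x : G) : Prop where
  mem : x ∈ normalizer (T : Set G)
  x7 : orderOf x = 7
  com : ∀ g ∈ centralizer (T : Set G), x⁻¹ * g⁻¹ * x * g ∈ T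
  nor : ∀ n ∈ normalizer (T : Set G), ∃ k : ℕ, ∀ a ∈ T,
    n⁻¹ * x * n * a * (n⁻¹ * x * n)⁻¹ = x ^ k * a * (x ^ k)⁻¹
  fpf : ∀ k : ℕ, ∀ a ∈ T, a * x ^ k = x ^ k * a → a = 1 ∨ 7 ∣ k

theorem Xd.inv {T : Subgroup G} {x : G} (h : Xd T x) : Xd T x⁻¹ := by
  refine ⟨inv_mem h.mem, by rw [orderOf_inv, h.x7], fun g hg => ?_, fun n hn => ?_,
    fun k a ha e => h.fpf k a ha ?_⟩
  · have := h9_conj_mem_of_mem_normalizer h.mem
      (inv_mem (h.com g hg))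
    convert this using 1; group
  · obtain ⟨k, hk⟩ := h.nor n hn
    refine ⟨k, fun a ha => ?_⟩
    have := hk _ (h9_conj_mem_of_mem_normalizer' (pow_mem h.mem k) ha)
    rw [show x ^ k * ((x ^ k)⁻¹ * a * x ^ k) * (x ^ k)⁻¹ = a by group] at this
    nth_rw 1 [← this]
    group
  · rw [inv_pow] at e
    exact Commute.inv_right_iff.mp e

theorem nhom_eq {T : Subgroup G} {n m : normalizer (T : Set G)} :
    T.normalizerMonoidHom n = T.normalizerMonoidHom m ↔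
      ∀ a ∈ T, n * a * (n : G)⁻¹ = m * a * (m : G)⁻¹ :=
  ⟨fun h a ha => congrArg (fun f : MulAut T => (f ⟨a, ha⟩ : G)) h,
    fun h => MulEquiv.ext fun a => Subtype.ext (h a a.2)⟩

namespace Weak

variable [Finite G] {ψ : X120 →* G} (P : Weak ψ)
include P

theorem fpf (m : normalizer (S8 ψ : Set G)) (hm : orderOf ((S8 ψ).normalizerMonoidHom m) = 7)
    {a : G} (ha : a ∈ S8 ψ) (e : a * m = m * a) : a = 1 := by
  by_contra h1
  obtain ⟨l, hl, rfl⟩ : a ∈ {b | ∃ l ∈ normalizer (S8 ψ : Set G), l * ψ c * l⁻¹ = b} :=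
    P.orbit_t ▸ ⟨ha, h1⟩
  obtain ⟨k, k0, k6, h2, -⟩ := P.card_N
  let N := normalizer (S8 ψ : Set G)
  let φ := (S8 ψ).normalizerMonoidHom
  let l' : N := ⟨l, hl⟩
  have h3 : l'⁻¹ * m * l' ∈ (N ⊓ centralizer {ψ c}).subgroupOf N :=
    ⟨(l'⁻¹ * m * l').2, mem_centralizer_singleton_iff.mpr (by
      show l⁻¹ * m * l * ψ c = ψ c * (l⁻¹ * m * l)
      calc _ = l⁻¹ * (m * (l * ψ c * l⁻¹)) * l := by group
        _ = _ := by rw [← e]; group)⟩
  have h4 := orderOf_dvd_natCard _ (mem_map_of_mem φ h3)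
  have hle : centralizer (S8 ψ : Set G) ≤ N ⊓ centralizer {ψ c} :=
    le_inf (centralizer_le_normalizer _) (centralizer_le (by simpa using Setup.t_mem))
  rw [map_mul, map_mul, map_inv, show orderOf ((φ l')⁻¹ * φ m * φ l') = 7 from by
    rw [← hm]; simpa using MulEquiv.orderOf_eq (MulAut.conj (φ l')⁻¹) (φ m), ← relIndex_ker,
    normalizerMonoidHom_ker, relIndex_subgroupOf inf_le_left] at h4
  have h5 := card_mul_index ((centralizer (S8 ψ : Set G)).subgroupOf (N ⊓ centralizer {ψ c}))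
  rw [Nat.card_congr (subgroupOfEquivOfLe hle).toEquiv, h2, mul_comm k,
    Nat.mul_right_inj Nat.card_pos.ne'] at h5
  have := Nat.le_of_dvd k0 (h4.trans h5.dvd)
  omega

theorem exists_x0 : ∃ x : normalizer (S8 ψ : Set G), orderOf ((S8 ψ).normalizerMonoidHom x) = 7 ∧
    ∀ n, ∃ k < 7, (S8 ψ).normalizerMonoidHom (n⁻¹ * x * n) = (S8 ψ).normalizerMonoidHom x ^ k := by
  classical
  obtain ⟨k, k0, k6, -, h2⟩ := P.card_N
  let N := normalizer (S8 ψ : Set G)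
  let φ := (S8 ψ).normalizerMonoidHom
  have hc : Nat.card φ.range = 7 * k := by
    have h5 := card_mul_index φ.ker
    rw [index_ker, normalizerMonoidHom_ker, Nat.card_congr
      (subgroupOfEquivOfLe (centralizer_le_normalizer _)).toEquiv, h2, ← mul_assoc, mul_comm,
      Nat.mul_left_inj Nat.card_pos.ne'] at h5
    exact h5
  have : Fact (Nat.Prime 7) := ⟨by norm_num⟩
  obtain ⟨Q⟩ : Nonempty (Sylow 7 φ.range) := inferInstance
  have hQ := sm_card_sylow_eq_prime (by omega) (by omega) Q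
  have h1 : Nat.card (Sylow 7 φ.range) = 1 := by
    have a1 := card_sylow_modEq_one 7 φ.range
    have a2 := Q.card_dvd_index
    have a3 := (Q : Subgroup φ.range).card_mul_index
    rw [hQ, hc] at a3
    have := Nat.le_of_dvd (by omega) a2
    unfold Nat.ModEq at a1
    omega
  have := (Nat.card_eq_one_iff_unique.mp h1).1
  have hn := Q.normal_of_subsingleton
  obtain ⟨⟨_, x, rfl⟩, hx, hx1⟩ := sm_exists_ne_one_of_card_prime hQ
  have ox := sm_orderOf_eq_of_card_prime hQ hx hx1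
  refine ⟨x, (orderOf_coe _).trans ox, fun n => ?_⟩
  have h3 := hn.conj_mem _ hx ⟨φ n⁻¹, n⁻¹, rfl⟩
  rw [sm_eq_zpowers_of_card_prime hQ hx hx1, mem_zpowers_iff_mem_range_orderOf, ox] at h3
  obtain ⟨j, hj, e⟩ := Finset.mem_image.mp h3
  exact ⟨j, Finset.mem_range.mp hj, by simpa using (congrArg Subtype.val e).symm⟩

theorem exists_xd {T : Subgroup G} (hT : S8 ψ = T) (x : normalizer (T : Set G))
    (h7 : orderOf (T.normalizerMonoidHom x) = 7)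
    (hn : ∀ n, ∃ k < 7, T.normalizerMonoidHom (n⁻¹ * x * n) = T.normalizerMonoidHom x ^ k)
    (y' : normalizer (T : Set G)) (hy' : (y' : G) = ψ y)
    (hy : T.normalizerMonoidHom (y'⁻¹ * x * y') = T.normalizerMonoidHom x ^ 2) :
    ∃ x', Xd T x' ∧ (ψ y)⁻¹ * x' * ψ y = x' ^ 2 := by
  subst hT
  let N := normalizer (S8 ψ : Set G)
  let φ := (S8 ψ).normalizerMonoidHom
  let π := QuotientGroup.mk' ((S8 ψ).subgroupOf N)
  have hπ : ∀ n : N, π n = 1 ↔ (n : G) ∈ S8 ψ := fun n => QuotientGroup.eq_one_iff n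
  have hker : ∀ n : N, φ n = 1 ↔ (n : G) ∈ centralizer (S8 ψ : Set G) := fun n => by
    rw [← MonoidHom.mem_ker, normalizerMonoidHom_ker]; rfl
  have : (φ.ker.map π).Normal := Normal.map inferInstance π (QuotientGroup.mk'_surjective _)
  let E := (centralizer (φ.ker.map π : Set _)).comap π
  have hEn : E.Normal := Normal.comap inferInstance π
  have hE : ∀ n ∈ E, ∀ g : N, φ g = 1 → π g * π n = π n * π g := fun n h g hg =>
    h _ (mem_map_of_mem π hg)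
  have hyE : y' ∈ E := by
    rintro _ ⟨g, hg, rfl⟩
    obtain ⟨w, hw, h1⟩ := P.split ((hker g).mp hg)
    have hwS : ψ w ∈ S8 ψ := mem_S8.mpr ⟨w, hw, rfl⟩
    rw [← mul_inv_eq_one, ← map_mul, ← map_mul, ← map_inv, ← map_mul, hπ]
    have : ((g * y' * (y' * g)⁻¹ : N) : G) = ψ w * (ψ y * (ψ w)⁻¹ * (ψ y)⁻¹) := by
      show (g : G) * y' * (y' * g : G)⁻¹ = _
      rw [hy']
      calc _ = ψ w * ((ψ w)⁻¹ * g * ψ y) * (ψ y * g)⁻¹ := by group
        _ = ψ w * (ψ y * ((ψ w)⁻¹ * g * ψ 1) * (g : G)⁻¹ * (ψ y)⁻¹) := by rw [h1, map_one]; group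
        _ = _ := by rw [map_one]; group
    rw [this]
    exact mul_mem hwS (h9_conj_mem_of_mem_normalizer Setup.y_mem (inv_mem hwS))
  have hcom : ∀ a : N, φ a = φ x → a⁻¹ * y'⁻¹ * a * y' ∈ E ∧ φ (a⁻¹ * y'⁻¹ * a * y') = φ x ∧
      φ ((a ^ 2)⁻¹ * (y'⁻¹ * a * y')) = 1 := fun a ha => by
    have h1 : φ (y'⁻¹ * a * y') = φ x ^ 2 := by rw [← hy]; simp only [map_mul, ha]; rfl
    refine ⟨mul_mem (by simpa using hEn.conj_mem _ (inv_mem hyE) a⁻¹) hyE, ?_, ?_⟩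
    · rw [show a⁻¹ * y'⁻¹ * a * y' = a⁻¹ * (y'⁻¹ * a * y') by group, map_mul, h1, map_inv, ha]
      group
    · rw [map_mul, h1, map_inv, map_pow, ha, inv_mul_cancel]
  obtain ⟨a1, a2, -⟩ := hcom x rfl
  generalize x⁻¹ * y'⁻¹ * x * y' = x1 at a1 a2
  obtain ⟨b1, b2, b3⟩ := hcom x1 a2
  have b4 : π (((x1⁻¹ * y'⁻¹ * x1 * y') ^ 2)⁻¹ * (y'⁻¹ * (x1⁻¹ * y'⁻¹ * x1 * y') * y')) = 1 := by
    have c1 := hE _ a1 _ b3
    have c2 := hE _ hyE _ b3
    have e1 : x1⁻¹ * y'⁻¹ * x1 * y' = x1 * ((x1 ^ 2)⁻¹ * (y'⁻¹ * x1 * y')) := by group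
    have e2 : y'⁻¹ * x1 * y' = x1 ^ 2 * ((x1 ^ 2)⁻¹ * (y'⁻¹ * x1 * y')) := by group
    rw [e1]
    generalize (x1 ^ 2)⁻¹ * (y'⁻¹ * x1 * y') = d at c1 c2 e2
    rw [show y'⁻¹ * (x1 * d) * y' = (y'⁻¹ * x1 * y') * (y'⁻¹ * d * y') by group, e2]
    simp only [map_mul, map_inv, map_pow]
    rw [mul_assoc (π y')⁻¹, c2, inv_mul_cancel_left, (Commute.mul_pow c1.symm)]
    group
  generalize x1⁻¹ * y'⁻¹ * x1 * y' = x2 at b1 b2 b4
  have hf : ∀ (a : N) (k : ℕ), φ a = φ x → ∀ b ∈ S8 ψ, b * a ^ k = a ^ k * b → b = 1 ∨ 7 ∣ k := by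
    intro a k ha b hb e
    refine or_iff_not_imp_right.mpr fun hk => P.fpf (a ^ k) ?_ hb e
    rw [map_pow, ha, (Nat.Coprime.orderOf_pow (by
      rw [h7]; exact (Nat.Prime.coprime_iff_not_dvd (by norm_num)).mpr hk)), h7]
  obtain ⟨σ, hσ, e1⟩ := exists_comm_eq (x2 ^ 2).2
    (fun b hb e => (hf x2 2 b2 b hb e).resolve_right (by norm_num)) ((hπ _).mp b4)
  obtain ⟨p, hp, rfl⟩ := mem_S8.mp (inv_mem hσ) |>.imp fun p h => (⟨h.1, by
    rw [h.2, inv_inv]⟩ : p * v = v * p ∧ (ψ p)⁻¹ = σ)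
  have e2 : Act (x2 : G) (ψ (y * p)) 2 := by
    have e3 : ((x2 : G) ^ 2)⁻¹ * (ψ p)⁻¹⁻¹ * x2 ^ 2 * (ψ p)⁻¹ =
      ((x2 : G) ^ 2)⁻¹ * ((y' : G)⁻¹ * x2 * y') := e1
    rw [hy', mul_assoc, mul_assoc, mul_right_inj] at e3
    unfold Act
    rw [map_mul, show (ψ y * ψ p)⁻¹ * x2 * (ψ y * ψ p) = (ψ p)⁻¹ * ((ψ y)⁻¹ * x2 * ψ y) * ψ p by
      group, ← e3]
    group
  have e3 := e2.npow 3
  unfold Act at e3
  have hc3 : ψ (y * p) ^ 3 ∈ S8 ψ := mem_S8.mpr ⟨_, cube p hp, map_pow _ _ _⟩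
  have e4 : (x2 : G) ^ 7 = 1 := by
    refine (hf x2 1 b2 _ ?_ (by simp only [pow_one]; group)).resolve_right (by norm_num)
    rw [show (x2 : G) ^ 7 = (x2 : G)⁻¹ * x2 ^ 2 ^ 3 by group, ← e3, ← mul_assoc, ← mul_assoc]
    exact mul_mem (h9_conj_mem_of_mem_normalizer' x2.2 (inv_mem hc3)) hc3
  have e5 : (y * p) ^ 3 = 1 := P.inj (by
    rw [map_pow, map_one]
    refine (hf x2 1 b2 _ hc3 ?_).resolve_right (by norm_num)
    rw [show (x2 : G) ^ 2 ^ 3 = x2 ^ 7 * x2 by group, e4, one_mul] at e3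
    simp only [pow_one]
    nth_rw 1 [← e3]; group)
  obtain ⟨w, hw, e6⟩ := cube' p hp e5
  have hwS : ψ w ∈ S8 ψ := mem_S8.mpr ⟨w, hw, rfl⟩
  let w' : N := ⟨ψ w, le_normalizer hwS⟩
  have hw' : φ w' = 1 := (hker w').mpr fun a ha => S8_comm ha hwS
  have c1 : φ (w'⁻¹ * x2 * w') = φ x := by simp only [map_mul, map_inv, hw', b2]; simp
  have c2 : w'⁻¹ * x2 * w' ∈ E := by simpa using hEn.conj_mem _ b1 w'⁻¹
  have c3 : ((w'⁻¹ * x2 * w' : N) : G) ^ 7 = 1 := by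
    have := conj_pow (a := (ψ w)⁻¹) (b := (x2 : G)) (i := 7)
    rw [e4, inv_inv] at this
    simpa using this
  have c4 : (ψ y)⁻¹ * (w'⁻¹ * x2 * w' : N) * ψ y = ((w'⁻¹ * x2 * w' : N) : G) ^ 2 := by
    unfold Act at e2
    rw [e6, map_mul, map_mul, map_inv] at e2
    show (ψ y)⁻¹ * ((ψ w)⁻¹ * x2 * ψ w) * ψ y = ((ψ w)⁻¹ * x2 * ψ w) ^ 2
    calc _ = (ψ w)⁻¹ * ((ψ w * ψ y * (ψ w)⁻¹)⁻¹ * x2 * (ψ w * ψ y * (ψ w)⁻¹)) * ψ w := by group
      _ = _ := by rw [e2, pow_two, pow_two]; group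
  generalize w'⁻¹ * x2 * w' = x3 at c1 c2 c3 c4
  have : Fact (Nat.Prime 7) := ⟨by norm_num⟩
  refine ⟨x3, ⟨x3.2, orderOf_eq_prime c3 fun h => ?_, fun g hg => ?_, fun n hn' => ?_,
    fun k => hf x3 k c1⟩, c4⟩
  · rw [← c1, show x3 = 1 from Subtype.ext h, map_one, orderOf_one] at h7
    omega
  · let g' : N := ⟨g, centralizer_le_normalizer _ hg⟩
    refine (hπ (x3⁻¹ * g'⁻¹ * x3 * g')).mp ?_
    simp only [map_mul, map_inv]
    rw [mul_assoc, ← hE _ c2 g' ((hker g').mpr hg)]; group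
  · obtain ⟨k, -, hk⟩ := hn ⟨n, hn'⟩
    refine ⟨k, nhom_eq.mp (show φ ((⟨n, hn'⟩ : N)⁻¹ * x3 * ⟨n, hn'⟩) = φ (x3 ^ k) from ?_)⟩
    rw [map_pow, c1, ← hk]
    simp only [map_mul, c1]; rfl

theorem cfg_of_xd {x : G} (h : Xd (S8 ψ) x) (xy : (ψ y)⁻¹ * x * ψ y = x ^ 2) :
    ∃ ψ' x', Weak ψ' ∧ ψ' c = ψ c ∧ Cfg ψ' x' ∧ Xd (S8 ψ') x' := by
  obtain ⟨e, x', h1, h2, h3⟩ := cfg_of_sq P.inj h.mem h.x7 xy fun k hk =>
    (h.fpf k _ Setup.t_mem hk.symm).resolve_left (P.ne_one (by decide +kernel))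
  have h4 : Xd (S8 ψ) x' := by rcases h3 with rfl | rfl; exacts [h, h.inv]
  have h5 : (ψ.comp e.toMonoidHom) c = ψ c := congrArg ψ h1
  have h6 : S8 (ψ.comp e.toMonoidHom) = S8 ψ := by
    refine eq_of_le_of_card_ge (fun a ha => ?_) (by rw [P.card_S, (P.comp e h1).card_S])
    by_cases a1 : a = 1
    · rw [a1]; exact one_mem _
    · obtain ⟨k, -, rfl⟩ := h2.eq_T ha a1
      rw [h5]
      exact h9_conj_mem_of_mem_normalizer' (pow_mem h4.mem k) Setup.t_mem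
  exact ⟨_, x', P.comp e h1, h5, h2, h6 ▸ h4⟩

theorem exists_cfg : ∃ ψ' x', Weak ψ' ∧ ψ' c = ψ c ∧ Cfg ψ' x' ∧ Xd (S8 ψ') x' := by
  obtain ⟨x, h7, hn⟩ := P.exists_x0
  let φ := (S8 ψ).normalizerMonoidHom
  let y' : normalizer (S8 ψ : Set G) := ⟨ψ y, Setup.y_mem⟩
  obtain ⟨k, hk, e⟩ := hn y'
  have e' : Act (φ x) (φ y') k := by unfold Act; rw [← e]; simp only [map_mul, map_inv]; rfl
  have hy3 : φ y' ^ 3 = 1 := by
    rw [← map_pow, show y' ^ 3 = 1 from Subtype.ext (by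
      show ψ y ^ 3 = 1
      rw [← map_pow, show y ^ 3 = 1 by decide +kernel, map_one]), map_one]
  have h3 := (e'.npow 3).uniq (l := 1) (by rw [hy3]; simp [Act])
  rw [h7] at h3
  have hk1 : k ≠ 1 := by
    rintro rfl
    rw [pow_one] at e
    obtain ⟨p, hp, e1⟩ := mem_S8.mp (h9_conj_mem_of_mem_normalizer x.2 Setup.t_mem)
    have e2 := nhom_eq.mp e _ Setup.t_mem
    have e3 : p * y = y * p := P.inj (by
      rw [map_mul, map_mul, e1]
      nth_rw 2 [← e2]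
      show _ = ψ y * ((ψ y)⁻¹ * x * ψ y * ψ c * ((ψ y)⁻¹ * x * ψ y)⁻¹)
      rw [mul_assoc _ (ψ y) (ψ c), Pre.comm]; group)
    rcases central p hp e3 with rfl | rfl
    · exact P.ne_one (p := c) (by decide +kernel) (by simpa using e1.symm)
    · exact P.ne_one (p := c) (by decide +kernel)
        (P.fpf x h7 Setup.t_mem (by nth_rw 1 [e1]; group))
  have hk2 : k = 2 ∨ k = 4 := by
    unfold Nat.ModEq at h3
    interval_cases k <;> omega
  rcases hk2 with rfl | rfl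
  · obtain ⟨x', h1, h2⟩ := P.exists_xd rfl x h7 hn y' rfl e
    exact P.cfg_of_xd h1 h2
  · have hS : S8 (ψ.comp α.toMonoidHom) = S8 ψ := by
      ext g
      rw [mem_S8, mem_S8]
      constructor
      · rintro ⟨p, hp, rfl⟩
        exact ⟨α p, by rw [← α_v, ← map_mul, hp, map_mul], rfl⟩
      · rintro ⟨p, hp, rfl⟩
        exact ⟨α.symm p, α.injective (by simpa [α_v] using hp), by simp⟩
    obtain ⟨x', h1, h2⟩ := (P.comp α α_c).exists_xd hS x h7 hn y'⁻¹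
      (by show _ = ψ (α y); rw [α_y, map_inv]; rfl) (by
        have := e'.inv (l := 2) (by rw [h7]; decide)
        unfold Act at this
        rw [← this]; simp only [map_mul, map_inv]; rfl)
    obtain ⟨ψ', x'', a1, a2, a3⟩ := (P.comp α α_c).cfg_of_xd (hS ▸ h1) h2
    exact ⟨ψ', x'', a1, a2.trans (congrArg ψ α_c), a3⟩

theorem decomp {x : G} (C : Cfg ψ x) (h : Xd (S8 ψ) x) {g : G} (hg : g * ψ c = ψ c * g) :
    ∃ p r, g = ψ p * r ∧ (∀ q, r * ψ q = ψ q * r) ∧ r * x = x * r := by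
  obtain ⟨q, hq⟩ := P.nrm g hg v
  obtain ⟨w, hw⟩ := conj_v' q (P.inj (by
      rw [map_mul, hq, show g * ψ v * g⁻¹ * (g * ψ v * g⁻¹) = g * (ψ v * ψ v) * g⁻¹ by group,
        ← map_mul, show v * v = 1 by decide +kernel]; simp))
    (fun e => P.ne_one (p := v) (by decide +kernel) (by simpa [e] using hq.symm))
    (P.fst_eq hg rfl (by decide +kernel) hq)
  have a1 : ψ w * g * ψ c = ψ c * (ψ w * g) := by rw [mul_assoc, hg, ← mul_assoc, Pre.comm, mul_assoc]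
  have a2 : ψ w * g * ψ v = ψ v * (ψ w * g) := by
    nth_rw 2 [← hw]
    simp only [map_mul, map_inv, hq]; group
  have a3 := P.mem_N a1 a2
  have hgw : g = ψ w⁻¹ * (ψ w * g) := by simp
  generalize ψ w * g = n at a1 a2 a3 hgw
  obtain ⟨k, hk⟩ := h.nor n a3
  have hv : ψ v ∈ S8 ψ := mem_S8.mpr ⟨v, rfl, rfl⟩
  have b1 : x ^ k * ψ v * (x ^ k)⁻¹ = x * ψ v * x⁻¹ := by
    rw [← hk _ hv]
    calc _ = n⁻¹ * (x * (n * ψ v) * n⁻¹ * x⁻¹) * n := by group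
      _ = n⁻¹ * (ψ c * n) := by rw [a2, ← C.xv]; group
      _ = _ := by rw [← a1, ← C.xv]; group
  have b2 : x ^ k = x := by
    have := (h.fpf (k + 6) _ hv (by
      have e : x ^ 6 = x⁻¹ := by rw [eq_inv_iff_mul_eq_one, ← pow_succ, C.x7']
      rw [add_comm, pow_add, e]
      calc _ = x⁻¹ * (x * ψ v * x⁻¹) * x ^ k := by group
        _ = _ := by rw [← b1]; group)).resolve_left (P.ne_one (by decide +kernel))
    nth_rw 2 [← pow_one x]
    rw [pow_eq_pow_iff_modEq, C.x7]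
    unfold Nat.ModEq; omega
  rw [b2] at hk
  have b3 : ∀ j : ℕ, x ^ j * ψ c * (x ^ j)⁻¹ * n = n * (x ^ j * ψ c * (x ^ j)⁻¹) := fun j => by
    induction j with
    | zero => simpa using a1.symm
    | succ j ih =>
      have := hk _ (h9_conj_mem_of_mem_normalizer (pow_mem h.mem j) Setup.t_mem)
      rw [pow_succ', show x * x ^ j * ψ c * (x * x ^ j)⁻¹ = x * (x ^ j * ψ c * (x ^ j)⁻¹) * x⁻¹ by
        group]
      nth_rw 2 [← this]
      generalize x ^ j * ψ c * (x ^ j)⁻¹ = a at ih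
      calc _ = x * (a * n) * n⁻¹ * x⁻¹ * n := by group
        _ = _ := by rw [ih]; group
  have b4 : n ∈ centralizer (S8 ψ : Set G) := fun a ha => by
    by_cases h1 : a = 1
    · simp [h1]
    · obtain ⟨j, -, rfl⟩ := C.eq_T ha h1
      have := b3 (6 * j)
      rwa [show x ^ (6 * j) = (x ^ j)⁻¹ by
        rw [eq_inv_iff_mul_eq_one, ← pow_add, show 6 * j + j = 7 * j by ring, pow_mul, C.x7',
          one_pow], inv_inv] at this
  have hf : ∀ a ∈ S8 ψ, a * x = x * a → a = 1 := fun a ha e =>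
    (h.fpf 1 a ha (by rwa [pow_one])).resolve_right (by norm_num)
  obtain ⟨σ, hσ, e1⟩ := exists_comm_eq h.mem hf (h.com n b4)
  have c1 : Commute (n * σ⁻¹) x := by
    show n * σ⁻¹ * x = x * (n * σ⁻¹)
    calc _ = n * x * (x⁻¹ * σ⁻¹ * x * σ) * σ⁻¹ := by group
      _ = n * x * (x⁻¹ * n⁻¹ * x * n) * σ⁻¹ := by rw [e1]
      _ = _ := by group
  have c2 : n * σ⁻¹ ∈ centralizer (S8 ψ : Set G) :=
    mul_mem b4 (inv_mem fun a ha => S8_comm ha hσ)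
  obtain ⟨p, hp, rfl⟩ := mem_S8.mp hσ
  have hnr : n = n * (ψ p)⁻¹ * ψ p := by simp
  generalize n * (ψ p)⁻¹ = r at c1 c2 hnr
  obtain ⟨u, hu, e2⟩ := P.split c2
  have huS : ψ u ∈ S8 ψ := mem_S8.mpr ⟨u, hu, rfl⟩
  have d1 : (ψ y)⁻¹ * r * ψ y * r⁻¹ = (ψ y)⁻¹ * ψ u * ψ y * (ψ u)⁻¹ := by
    calc _ = (ψ y)⁻¹ * ψ u * ((ψ u)⁻¹ * r * ψ y) * r⁻¹ := by group
      _ = _ := by rw [e2]; group
  have d2 : Commute ((ψ y)⁻¹ * r * ψ y) x := by
    have := (c1.map (MulAut.conj (ψ y)⁻¹)).pow_right 4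
    simp only [MulAut.conj_apply, inv_inv] at this
    rwa [C.xy, ← pow_mul, show 2 * 4 = 7 + 1 by rfl, pow_succ, C.x7', one_mul] at this
  have d3 := hf _ (d1 ▸ mul_mem (h9_conj_mem_of_mem_normalizer' Setup.y_mem huS) (inv_mem huS))
    (d2.mul_left c1.inv_left).eq
  rw [d1, mul_inv_eq_one] at d3
  have d4 : ∀ q, ψ u * ψ q = ψ q * ψ u := by
    rcases central u hu (P.inj (by rw [map_mul, map_mul]; nth_rw 2 [← d3]; group)) with rfl | rfl
    · simp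
    · exact fun q => (Pre.comm q).symm
  have d5 : ∀ q, r * ψ q = ψ q * r := fun q => by
    calc _ = ψ u * ((ψ u)⁻¹ * r * ψ q) := by group
      _ = (ψ u * ψ q) * ((ψ u)⁻¹ * r) := by rw [e2]; group
      _ = _ := by rw [d4]; group
  exact ⟨w⁻¹ * p, r, by rw [hgw, hnr, d5, map_mul, mul_assoc], d5, c1⟩

end Weak

end Cfsg.Lib.J1
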