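import Cfsg.Agent.Lib.J1.Weak2

/-! The weak closure of a `2`-central involution in its centraliser is `Z₂ × A₅`: the normal
closure is `J₁`. -/

set_option autoImplicit false

namespace Cfsg.Lib.J1

open Subgroup X120

variable {G : Type*} [Group G]

theorem Cfg.setup [Finite G] {ψ : X120 →* G} {x : G} (C : Cfg ψ x)
    (ran : ∀ g, g * ψ c = ψ c * g → ∃ p, ψ p = g) : Setup ψ x := by
  refine ⟨⟨C.inj, fun g => ⟨ran g, fun ⟨p, h⟩ => h ▸ Pre.comm p⟩, fun h => ?_⟩, C.x7, C.xy, C.xv⟩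
  have h8 : Nat.card (S8 ψ) = 2 ^ 3 := by rw [S8, card_map_of_injective C.inj, card_v]; rfl
  obtain ⟨K, hK, hle⟩ := Sylow.exists_subgroup_card_pow_succ (p := 2) (n := 3) h h8
  have : Nontrivial K := Finite.one_lt_card_iff_nontrivial.mp (by rw [hK]; norm_num)
  have := (IsPGroup.of_card hK).center_nontrivial
  obtain ⟨⟨⟨a, ha⟩, hz⟩, h1⟩ := exists_ne (1 : center K)
  have hc : ∀ g ∈ K, g * a = a * g := fun g hg =>
    congrArg Subtype.val (mem_center_iff.mp hz ⟨g, hg⟩)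
  obtain ⟨p, rfl⟩ := ran a (hc _ (hle Setup.t_mem)).symm
  obtain ⟨k, -, e⟩ := C.eq_T (mem_S8.mpr ⟨p, C.inj (by
    rw [map_mul, map_mul, hc _ (hle (mem_S8.mpr ⟨v, rfl, rfl⟩))]), rfl⟩)
    (fun e => h1 (Subtype.ext (Subtype.ext e)))
  have h2 : K.map (MulAut.conj (x ^ k)).toMonoidHom ≤ ψ.range := by
    rintro _ ⟨g, hg, rfl⟩
    refine ran _ ?_
    have := hc g hg
    rw [e] at this
    show x ^ k * g * (x ^ k)⁻¹ * ψ c = ψ c * (x ^ k * g * (x ^ k)⁻¹)
    calc _ = x ^ k * (g * ((x ^ k)⁻¹ * ψ c * x ^ k)) * (x ^ k)⁻¹ := by group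
      _ = _ := by rw [this]; group
  have h3 := card_dvd_of_le h2
  rw [card_map_of_injective (MulAut.conj (x ^ k)).injective, hK,
    ← Nat.card_congr (MonoidHom.ofInjective C.inj).toEquiv, X120.card] at h3
  exact absurd h3 (by norm_num)

theorem Cfg.eq_one {ψ : X120 →* G} {x : G} (C : Cfg ψ x) {p : X120} (h1 : ∀ q, ψ p * ψ q = ψ q * ψ p)
    (h2 : ψ p * x = x * ψ p) : p = 1 := by
  refine (central p (C.inj (by simpa using h1 v)) (C.inj (by simpa using h1 y))).resolve_right ?_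
  rintro rfl
  have := C.xv
  rw [mul_assoc, h2, inv_mul_cancel_left] at this
  exact absurd (C.inj this) (by decide +kernel)

theorem eq_one_of_central {w a z : G} (hz : ∀ g, g * z = z * g) (h : w * a = z * a * w)
    (hw : w ^ 5 = 1) (ha : a ^ 3 = 1) : z = 1 := by
  have h1 : ∀ n : ℕ, w ^ n * a = z ^ n * a * w ^ n := fun n => by
    induction n with
    | zero => simp
    | succ n ih =>
      have : Commute w (z ^ n) := Commute.pow_right (hz w) n
      rw [pow_succ', mul_assoc, ih, ← mul_assoc, ← mul_assoc, this.eq, mul_assoc _ w, h]; group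
  have h2 : ∀ n : ℕ, w * a ^ n = z ^ n * a ^ n * w := fun n => by
    induction n with
    | zero => simp
    | succ n ih =>
      have : Commute (a ^ n) z := hz _
      rw [pow_succ, ← mul_assoc, ih, mul_assoc _ w, h, ← mul_assoc, ← mul_assoc, mul_assoc _ (a ^ n),
        this.eq]; group
  have h3 := h1 5
  have h4 := h2 3
  rw [hw] at h3
  rw [ha] at h4
  have h5 : z ^ 5 = 1 := by simpa using h3.symm
  have h6 : z ^ 3 = 1 := by simpa using h4.symm
  simpa using pow_gcd_eq_one.mpr ⟨h5, h6⟩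

theorem conj_mul_pow {a e : G} (ha : a * a = 1) (he : e * e = 1) (k : ℕ) :
    ∃ h : G, h * a * h⁻¹ = a * (a * e) ^ k ∨ h * e * h⁻¹ = a * (a * e) ^ k := by
  obtain ⟨j, rfl | rfl⟩ := Nat.even_or_odd' k
  · refine ⟨((a * e) ^ j)⁻¹, Or.inl ?_⟩
    rw [inv_inv]
    nth_rw 1 [← h9_conj_pow_of_inv (h9_invol_inverts_left ha he) j]
    group
  · refine ⟨((a * e) ^ j)⁻¹, Or.inr ?_⟩
    rw [inv_inv, pow_succ', ← mul_assoc, ← mul_assoc, ha, one_mul]
    nth_rw 1 [← h9_conj_pow_of_inv (h9_invol_inverts_right ha he) j]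
    group

namespace Weak

variable [Finite G] {ψ : X120 →* G} (P : Weak ψ) {x : G} (C : Cfg ψ x) (h : Xd (S8 ψ) x)
include P C h

theorem decomp' {K : Subgroup G} (hK : K = closure {ψ c, ψ s, x, ψ y}) {g : G}
    (hg : g * ψ c = ψ c * g) : ∃ p r, g = ψ p * r ∧ ∀ k ∈ K, k * r = r * k := by
  obtain ⟨p, r, e, h1, h2⟩ := P.decomp C h hg
  refine ⟨p, r, e, fun k hk => mem_centralizer_singleton_iff.mp ?_⟩
  revert k
  change K ≤ _
  rw [hK, closure_le]
  rintro _ (rfl | rfl | rfl | rfl) <;> refine mem_centralizer_singleton_iff.mpr ?_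
  exacts [(h1 _).symm, (h1 _).symm, h2.symm, (h1 _).symm]

theorem setup {K : Subgroup G} (hK : K = closure {ψ c, ψ s, x, ψ y}) :
    ∃ (hψ : ∀ p, ψ p ∈ K) (hx : x ∈ K), Setup (ψ.codRestrict K hψ) ⟨x, hx⟩ ∧
      Nat.card K = 175560 := by
  have ht : ψ c ∈ K := hK ▸ subset_closure (by simp)
  have hx : x ∈ K := hK ▸ subset_closure (by simp)
  have hψ := mem_of_gens ht (C.xv ▸ mul_mem (mul_mem (inv_mem hx) ht) hx)
    (hK ▸ subset_closure (by simp)) (hK ▸ subset_closure (by simp))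
  let φ := ψ.codRestrict K hψ
  let x' : K := ⟨x, hx⟩
  have C' : Cfg φ x' := ⟨fun a b h => C.inj (congrArg Subtype.val h),
    by rw [← C.x7]; exact (orderOf_coe _).symm, Subtype.ext C.xy, Subtype.ext C.xv⟩
  let π := QuotientGroup.mk' (center K)
  have hπ : ∀ a b : K, π a = π b ↔ a⁻¹ * b ∈ center K := fun a b => QuotientGroup.eq
  have h1 : ∀ p, φ p ∈ center K → p = 1 := fun p hp =>
    C'.eq_one (fun q => (mem_center_iff.mp hp _).symm) (mem_center_iff.mp hp _).symm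
  have : Fact (Nat.Prime 7) := ⟨by norm_num⟩
  have Cq : Cfg (π.comp φ) (π x') := by
    refine ⟨fun a b e => ?_, orderOf_eq_prime (by rw [← map_pow, C'.x7', map_one]) fun e => ?_,
      by simpa using congrArg π C'.xy, by simpa using congrArg π C'.xv⟩
    · have := (hπ _ _).mp e
      rw [← map_inv, ← map_mul] at this
      exact inv_mul_eq_one.mp (h1 _ this)
    · have := C'.xv
      rw [mul_assoc, mem_center_iff.mp ((QuotientGroup.eq_one_iff x').mp e),
        inv_mul_cancel_left] at this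
      exact absurd (C'.inj this) (by decide +kernel)
  have hran : ∀ g : K, π g * π (φ c) = π (φ c) * π g → ∃ p, (φ p)⁻¹ * g ∈ center K := by
    intro g hg
    have a1 : (φ c)⁻¹ * (g * φ c * g⁻¹) ∈ center K :=
      (hπ _ _).mp (by rw [map_mul, map_mul, hg, map_inv, mul_inv_cancel_right])
    obtain ⟨q, hq⟩ := P.wk g (by
      have := congrArg Subtype.val (mem_center_iff.mp a1 (φ c))
      change ψ c * ((ψ c)⁻¹ * (g * ψ c * (g : G)⁻¹)) = (ψ c)⁻¹ * (g * ψ c * (g : G)⁻¹) * ψ c at this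
      calc _ = ψ c * ((ψ c)⁻¹ * (g * ψ c * (g : G)⁻¹) * ψ c) := by group
        _ = _ := by rw [← this]; group)
    have a2 := h1 (c⁻¹ * q) (by
      rwa [show φ (c⁻¹ * q) = (φ c)⁻¹ * (g * φ c * g⁻¹) from Subtype.ext (by
        show ψ (c⁻¹ * q) = _
        rw [map_mul, map_inv, hq]; rfl)])
    rw [← inv_mul_eq_one.mp a2, eq_mul_inv_iff_mul_eq] at hq
    obtain ⟨p, r, e, hr⟩ := P.decomp' C h hK hq.symm
    refine ⟨p, mem_center_iff.mpr fun k => Subtype.ext ?_⟩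
    show k * ((ψ p)⁻¹ * g) = (ψ p)⁻¹ * g * k
    rw [e, inv_mul_cancel_left, hr k k.2]
  have Sq := Cq.setup fun g hg => by
    obtain ⟨g, rfl⟩ := QuotientGroup.mk'_surjective _ g
    obtain ⟨p, hp⟩ := hran g hg
    exact ⟨p, (hπ _ _).mpr hp⟩
  have hrel : Commute (cw1 (φ s) (x'⁻¹ * φ c * x') (φ y) 0)
      (x' * yp (φ s) (x'⁻¹ * φ c * x') (φ y) * x'⁻¹) := by
    have a1 := Sq.rel
    rw [Cq.xv] at a1
    rw [C'.xv]
    have a2 : cw1 (φ s) (φ v) (φ y) 0 ^ 5 = 1 := by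
      rw [← map_cw1, ← map_pow, show cw1 s v y 0 ^ 5 = 1 by decide +kernel, map_one]
    have a3 : yp (φ s) (φ v) (φ y) = φ (yp s v y) := by simp only [yp, map_mul]
    have a4 : (x' * yp (φ s) (φ v) (φ y) * x'⁻¹) ^ 3 = 1 := by
      rw [conj_pow, a3, ← map_pow, show yp s v y ^ 3 = 1 by decide +kernel]; simp
    have a5 : π (cw1 (φ s) (φ v) (φ y) 0) * π (x' * yp (φ s) (φ v) (φ y) * x'⁻¹) =
        π (x' * yp (φ s) (φ v) (φ y) * x'⁻¹) * π (cw1 (φ s) (φ v) (φ y) 0) := by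
      rw [map_cw1]; simp only [yp, map_mul, map_inv]; exact a1
    generalize cw1 (φ s) (φ v) (φ y) 0 = w at a2 a5
    generalize x' * yp (φ s) (φ v) (φ y) * x'⁻¹ = a at a4 a5
    rw [← map_mul, ← map_mul] at a5
    have a6 := mem_center_iff.mp ((hπ _ _).mp a5.symm)
    have := eq_one_of_central a6 (w := w) (a := a) (by rw [mul_assoc, ← a6]; group) a2 a4
    exact (inv_mul_eq_one.mp this).symm
  have hd : Nat.card (K ⧸ center K) * Nat.card (center K) = Nat.card K :=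
    (card_eq_card_quotient_mul_card_subgroup _).symm
  rw [Sq.main.2.1] at hd
  have hc : Nat.card K = 175560 := by
    have := (C.base.onto_J1 (hrel.map K.subtype) (by rw [← hK]; omega)).1
    rwa [← hK] at this
  have hb : center K = ⊥ := card_eq_one.mp (by omega)
  refine ⟨hψ, hx, C'.setup fun g hg => ?_, hc⟩
  obtain ⟨p, hp⟩ := hran g (by rw [← map_mul, hg, map_mul])
  rw [hb, mem_bot, inv_mul_eq_one] at hp
  exact ⟨p, hp⟩

theorem conj_mem {K : Subgroup G} (hK : K = closure {ψ c, ψ s, x, ψ y}) (g₀ : G) :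
    g₀ * ψ c * g₀⁻¹ ∈ K := by
  obtain ⟨hψ, hx, S, hc⟩ := P.setup C h hK
  have ti : ψ c ∈ Inv2 G := ⟨Pre.tt, P.ne_one (by decide +kernel)⟩
  have hconj : ∀ a ∈ K, a ∈ Inv2 G → ∃ m ∈ K, m * ψ c * m⁻¹ = a := fun a ha ha' => by
    obtain ⟨m, hm⟩ := S.conj_t (u := ⟨a, ha⟩) (Subtype.ext ha'.1)
      (fun e => ha'.2 (congrArg Subtype.val e))
    exact ⟨m⁻¹, inv_mem m.2, by
      rw [← show (m : G) * a * (m : G)⁻¹ = ψ c from congrArg Subtype.val hm]; group⟩
  have hz : ∀ a ∈ K, (∀ k ∈ K, k * a = a * k) → a = 1 := fun a ha e => by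
    obtain ⟨p, hp⟩ := (S.ran ⟨a, ha⟩).mp (Subtype.ext (e _ (hψ c)).symm)
    obtain rfl : ψ p = a := congrArg Subtype.val hp
    rw [C.eq_one (fun q => (e _ (hψ q)).symm) (e _ hx).symm, map_one]
  have hdec : ∀ a ∈ K, a ∈ Inv2 G → ∀ g, g * a * g⁻¹ ∈ K →
      ∃ m ∈ K, ∃ r, g = m * r ∧ ∀ k ∈ K, k * r = r * k := fun a ha ha' g hg => by
    obtain ⟨l', hl', e⟩ := hconj _ hg (inv2_conj ha' g)
    obtain ⟨l, hl, rfl⟩ := hconj a ha ha'
    obtain ⟨p, r, e1, hr⟩ := P.decomp' C h hK (g := l'⁻¹ * g * l) (by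
      calc _ = l'⁻¹ * (g * (l * ψ c * l⁻¹) * g⁻¹) * g * l := by group
        _ = _ := by rw [← e]; group)
    refine ⟨l' * ψ p * l⁻¹, mul_mem (mul_mem hl' (hψ p)) (inv_mem hl), r, ?_, hr⟩
    rw [mul_assoc, hr _ (inv_mem hl), ← mul_assoc, mul_assoc l', ← e1]; group
  have hwk : ∀ a ∈ K, a ∈ Inv2 G → ∀ g, g * ψ c * g⁻¹ * a = a * (g * ψ c * g⁻¹) →
      g * ψ c * g⁻¹ ∈ K := fun a ha ha' g hg => by
    obtain ⟨l, hl, rfl⟩ := hconj a ha ha'
    obtain ⟨p, hp⟩ := P.wk (l⁻¹ * g) (by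
      calc _ = l⁻¹ * (g * ψ c * g⁻¹ * (l * ψ c * l⁻¹)) * l := by group
        _ = _ := by rw [hg]; group)
    have := mul_mem (mul_mem hl (hψ p)) (inv_mem hl)
    rw [hp] at this
    convert this using 1; group
  have hodd : ∀ a ∈ K, a ∈ Inv2 G → ∀ g, g * ψ c * g⁻¹ ∉ K →
      Odd (orderOf (a * (g * ψ c * g⁻¹))) := fun a ha ha' g hg => by
    rw [← Nat.not_even_iff_odd]
    intro he
    have hi := inv2_conj ti g
    obtain ⟨k, -, ok, c1, c2⟩ := h9_central_invol_of_even ha'.1 hi.1 he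
    obtain ⟨l, hl⟩ := conj_mul_pow ha'.1 hi.1 k
    obtain ⟨g', e⟩ : ∃ g', g' * ψ c * g'⁻¹ = a * (a * (g * ψ c * g⁻¹)) ^ k := by
      rcases hl with hl | hl
      · obtain ⟨m, -, e⟩ := hconj a ha ha'
        exact ⟨l * m, by rw [← hl, ← e]; group⟩
      · exact ⟨l * g, by rw [← hl]; group⟩
    generalize (a * (g * ψ c * g⁻¹)) ^ k = w at ok c1 c2 e
    rw [h9_orderOf_eq_two_iff] at ok
    have := mul_mem (inv_mem ha) (hwk a ha ha' g' (by rw [e, mul_assoc, c1.eq]))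
    rw [e, inv_mul_cancel_left] at this
    exact hg (hwk w this ⟨ok.2, ok.1⟩ g c2.symm)
  by_contra huK
  have hui := inv2_conj ti g₀
  have hu : ∀ a ∈ K, a ∈ Inv2 G → g₀ * ψ c * g₀⁻¹ * a * (g₀ * ψ c * g₀⁻¹)⁻¹ ∉ K := by
    intro a ha ha' hg
    obtain ⟨m, hm, r, e, hr⟩ := hdec a ha ha' _ hg
    have h1 : m * m * (r * r) = 1 := by
      rw [← hui.1, e]
      calc _ = m * (m * r) * r := by group
        _ = _ := by nth_rw 1 [hr m hm]; group
    by_cases h2 : m = 1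
    · exact huK (hwk _ (hψ c) ti g₀ (by rw [e, h2, one_mul, hr _ (hψ c)]))
    · refine huK (hwk m hm ⟨hz _ (mul_mem hm hm) fun k hk => ?_, h2⟩ g₀
        (by rw [e, mul_assoc, hr m hm]))
      rw [eq_inv_of_mul_eq_one_left h1]
      have : Commute k r := hr k hk
      exact (this.mul_right this).inv_right
  have hodd' : ∀ a ∈ K, a ∈ Inv2 G → ∀ b ∈ K, b ∈ Inv2 G →
      Odd (orderOf (a * (g₀ * ψ c * g₀⁻¹ * b * (g₀ * ψ c * g₀⁻¹)⁻¹))) := fun a ha ha' b hb hb' => by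
    have h1 := hu b hb hb'
    obtain ⟨m, -, rfl⟩ := hconj b hb hb'
    generalize g₀ * ψ c * g₀⁻¹ = u at h1
    rw [show u * (m * ψ c * m⁻¹) * u⁻¹ = u * m * ψ c * (u * m)⁻¹ by group] at h1 ⊢
    exact hodd a ha ha' _ h1
  generalize g₀ * ψ c * g₀⁻¹ = u at hui hu hodd'
  have hu' : u⁻¹ = u := inv_eq_of_mul_eq_one_right hui.1
  have hnor : ∀ m ∈ K, ∀ r, (∀ k ∈ K, k * r = r * k) → m * r ∈ normalizer (K : Set G) :=
    fun m hm r hr => mul_mem (le_normalizer hm) (centralizer_le_normalizer _ hr)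
  let D : Subgroup K :=
    { carrier := {m | ∃ r, (∀ k ∈ K, k * r = r * k) ∧ u * (m * r) * u⁻¹ ∈ normalizer (K : Set G)}
      one_mem' := ⟨1, by simp, by simp⟩
      mul_mem' := fun {a b} ⟨r, hr, h1⟩ ⟨r', hr', h2⟩ => ⟨r * r',
        fun k hk => Commute.mul_right (hr k hk) (hr' k hk), by
          convert mul_mem h1 h2 using 1
          rw [coe_mul, ← mul_assoc (a * b : G), mul_assoc (a : G), hr b b.2]; group⟩
      inv_mem' := fun {a} ⟨r, hr, h1⟩ => ⟨r⁻¹, fun k hk => Commute.inv_right (hr k hk), by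
          convert inv_mem h1 using 1
          rw [coe_inv, hr a a.2]; group⟩ }
  refine S.no_big_odd hc D (fun h2 => ?_) ?_
  · obtain ⟨⟨⟨a, ha⟩, r, hr, h1⟩, oa⟩ := exists_prime_orderOf_dvd_card' 2 h2
    rw [← orderOf_coe, ← orderOf_coe, h9_orderOf_eq_two_iff] at oa
    have ai : a ∈ Inv2 G := ⟨oa.2, oa.1⟩
    obtain ⟨m, hm, r', e, hr'⟩ := hdec _ (hψ c) ti _ (h9_conj_mem_of_mem_normalizer h1 (hψ c))
    obtain ⟨j, b, hb, bi, hbm⟩ : ∃ j, ∃ b ∈ K, b ∈ Inv2 G ∧ Commute b (m ^ (2 * j + 1)) := by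
      rcases Nat.even_or_odd' (orderOf m) with ⟨j, hj | hj⟩
      · have h3 := orderOf_pow_orderOf_div (orderOf_pos m).ne' (Dvd.intro j hj.symm)
        rw [h9_orderOf_eq_two_iff] at h3
        exact ⟨0, _, pow_mem hm _, ⟨h3.2, h3.1⟩, Commute.pow_pow_self _ _ _⟩
      · exact ⟨j, _, hψ c, ti, by rw [← hj, pow_orderOf_eq_one]; exact Commute.one_right _⟩
    have e1 : (a * r) ^ (2 * j + 1) = a * r ^ (2 * j + 1) := by
      rw [Commute.mul_pow (hr a ha), pow_succ, pow_mul, pow_two, ai.1]; simp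
    have hb1 : Commute (u * b * u⁻¹) (a * r ^ (2 * j + 1)) := by
      have h3 : Commute b ((u * (a * r) * u⁻¹) ^ (2 * j + 1)) := by
        rw [show u * (a * r) * u⁻¹ = m * r' from e, Commute.mul_pow (hr' m hm)]
        exact hbm.mul_right (Commute.pow_right (hr' b hb) _)
      have h4 := h3.map (MulAut.conj u)
      rw [conj_pow, e1] at h4
      simp only [MulAut.conj_apply] at h4
      rwa [show ∀ z, u * (u * z * u⁻¹) * u⁻¹ = (u * u) * z * (u * u)⁻¹ from fun z => by group,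
        hui.1, one_mul, inv_one, mul_one] at h4
    have hrr : ∀ k ∈ K, Commute k (r ^ (2 * j + 1)) := fun k hk => Commute.pow_right (hr k hk) _
    generalize r ^ (2 * j + 1) = ρ at hb1 hrr
    obtain ⟨l, hl, rfl⟩ := hconj a ha ai
    have hv : l * ψ v * l⁻¹ ∈ K := mul_mem (mul_mem hl (hψ v)) (inv_mem hl)
    have vi : l * ψ v * l⁻¹ ∈ Inv2 G := inv2_conj ⟨by
      rw [← map_mul, show v * v = 1 by decide +kernel, map_one], P.ne_one (by decide +kernel)⟩ l
    have hva : Commute (l * ψ v * l⁻¹) (l * ψ c * l⁻¹) :=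
      Commute.map (Pre.comm (ψ := ψ) v) (MulAut.conj l)
    have hne : l * ψ v * l⁻¹ ≠ l * ψ c * l⁻¹ := fun e =>
      absurd (P.inj (by simpa using e) : v = c) (by decide +kernel)
    generalize l * ψ v * l⁻¹ = a' at hv vi hva hne
    generalize l * ψ c * l⁻¹ = a at ha ai hva hne hb1
    have bi' := inv2_conj bi u
    obtain ⟨k, hk⟩ := h9_conj_of_odd ai.1 bi'.1 (hodd' a ha ai b hb bi)
    obtain ⟨k', hk'⟩ := h9_conj_of_odd vi.1 bi'.1 (hodd' a' hv vi b hb bi)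
    have c1 := (((Commute.refl a).mul_right (hrr a ha)).mul_left hb1).pow_left k
    have c2 := ((hva.mul_right (hrr a' hv)).mul_left hb1).pow_left k'
    have c3 := c2.inv_left.mul_left c1
    have c4 : ((a' * (u * b * u⁻¹)) ^ k')⁻¹ * (a * (u * b * u⁻¹)) ^ k * a *
        (((a' * (u * b * u⁻¹)) ^ k')⁻¹ * (a * (u * b * u⁻¹)) ^ k)⁻¹ = a' := by
      generalize (a' * (u * b * u⁻¹)) ^ k' = w' at hk'
      generalize (a * (u * b * u⁻¹)) ^ k = w at hk
      calc _ = w'⁻¹ * (w * a * w⁻¹) * w' := by group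
        _ = _ := by rw [hk, ← hk']; group
    generalize ((a' * (u * b * u⁻¹)) ^ k')⁻¹ * (a * (u * b * u⁻¹)) ^ k = g at c3 c4
    obtain ⟨n, hn, σ, rfl, hσ⟩ := hdec a ha ai g (c4 ▸ hv)
    refine hne (inv_mul_eq_one.mp (hz _ (mul_mem (inv_mem hv) ha) fun k hk => ?_))
    have c5 : a'⁻¹ * a = σ * ρ * σ⁻¹ * ρ⁻¹ := by
      have c6 : σ * ρ * σ⁻¹ = n * σ * ρ * (n * σ)⁻¹ := by
        have := ((Commute.mul_right (hσ n hn) (hrr n hn)).mul_right
          (Commute.inv_right (hσ n hn))).eq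
        calc _ = n * (σ * ρ * σ⁻¹) * n⁻¹ := by rw [this]; group
          _ = _ := by group
      rw [c6, ← c4]
      calc _ = n * σ * a⁻¹ * (n * σ)⁻¹ * (a * ρ) * ρ⁻¹ := by group
        _ = n * σ * a⁻¹ * (n * σ)⁻¹ * (n * σ * (a * ρ) * (n * σ)⁻¹) * ρ⁻¹ := by
          rw [c3.eq, mul_inv_cancel_right]
        _ = _ := by group
    rw [c5]
    have d1 : Commute k σ := hσ k hk
    exact ((d1.mul_right (hrr k hk)).mul_right d1.inv_right).mul_right (hrr k hk).inv_right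
  · have h3 := S.card_J
    have h4 := ncard_conj_mul' D (ψ.codRestrict K hψ c)
    have hset : {b | ∃ l ∈ D, l * ψ.codRestrict K hψ c * l⁻¹ = b} = Inv2 K := by
      ext ⟨b, hb⟩
      refine ⟨fun ⟨l, _, e⟩ => e ▸ inv2_conj S.t_inv l, fun bi => ?_⟩
      have bi' : b ∈ Inv2 G := ⟨congrArg Subtype.val bi.1, fun e => bi.2 (Subtype.ext e)⟩
      have hb' := inv2_conj bi' u
      obtain ⟨k, hk⟩ := h9_conj_of_odd ti.1 hb'.1 (hodd' _ (hψ c) ti b hb bi')
      have hinv := h9_conj_pow_of_inv (h9_invol_inverts_left ti.1 hb'.1) k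
      generalize (ψ c * (u * b * u⁻¹)) ^ k = a at hk hinv
      have e : u * (a * ψ c) * ψ c * (u * (a * ψ c))⁻¹ = b := by
        calc _ = u * (a * ψ c * a⁻¹) * u⁻¹ := by group
          _ = (u * u) * b * (u * u)⁻¹ := by rw [hk]; group
          _ = b := by rw [hui.1]; simp
      obtain ⟨m, hm, r, e1, hr⟩ := hdec _ (hψ c) ti _ (e ▸ hb)
      have e2 : (a * ψ c)⁻¹ = a * ψ c := by
        rw [mul_inv_rev, ← hinv]
        calc _ = a * (ψ c)⁻¹ := by group
          _ = _ := by rw [inv_eq_of_mul_eq_one_right ti.1]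
      refine ⟨⟨m, hm⟩, ⟨r, hr, ?_⟩, Subtype.ext ?_⟩
      · have := inv_mem (hnor m hm r hr)
        rw [← e1, mul_inv_rev, e2] at this
        show u * (m * r) * u⁻¹ ∈ _
        rwa [← e1, ← mul_assoc u u, hui.1, one_mul]
      · show m * ψ c * m⁻¹ = b
        rw [← e, e1, mul_assoc m r, ← hr _ (hψ c)]; group
    rw [hset] at h4
    rw [← h4, show (Inv2 K).ncard = 1463 by omega]
    exact dvd_mul_right _ _

omit C h in
theorem iso : Spor.IsoJ1 (normalClosure ({ψ c} : Set G)) := by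
  obtain ⟨ψ', x, P', e, C, h⟩ := P.exists_cfg
  rw [← e]
  obtain ⟨hψ, hx, S, -⟩ := P'.setup C h rfl
  have h1 := P'.conj_mem C h rfl
  generalize closure {ψ' c, ψ' s, x, ψ' y} = K at hψ hx S h1
  have h2 : normalClosure ({ψ' c} : Set G) = K := by
    apply le_antisymm
    · refine (closure_le _).mpr fun a ha => ?_
      obtain ⟨b, rfl, hb⟩ := Group.mem_conjugatesOfSet_iff.mp ha
      obtain ⟨g, rfl⟩ := isConj_iff.mp hb
      exact h1 g
    · refine subgroupOf_eq_top.mp ((S.simple.eq_bot_or_eq_top_of_normal _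
        inferInstance).resolve_left fun hb => S.t_inv.2 ?_)
      exact mem_bot.mp (hb ▸ subset_normalClosure rfl)
  rw [h2]
  exact S.main.2.2

end Weak

theorem weak_closure [Finite G] (t : G) (ht : orderOf t = 2) (S : Sylow 2 G)
    (htc : ∀ s ∈ (S : Subgroup G), s * t = t * s)
    (hW : Nonempty (closure {x : G | ∃ g : G, x = g * t * g⁻¹ ∧ x * t = t * x} ≃* X120)) :
    Spor.IsoJ1 (normalClosure ({t} : Set G)) := by
  obtain ⟨e⟩ := hW
  set W := closure {x : G | ∃ g : G, x = g * t * g⁻¹ ∧ x * t = t * x} with hW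
  have htW : t ∈ W := subset_closure ⟨1, by simp, rfl⟩
  have hle : W ≤ centralizer {t} := (closure_le _).mpr fun a ⟨_, _, h⟩ =>
    mem_centralizer_singleton_iff.mpr h
  let ψ : X120 →* G := W.subtype.comp e.symm.toMonoidHom
  have hψ : ∀ a : W, ψ (e a) = a := fun a => by simp [ψ]
  have hψ' : ∀ p, ψ p ∈ W := fun p => (e.symm p).2
  have inj : Function.Injective ψ := W.subtype_injective.comp e.symm.injective
  have hc : ψ c = t := by
    have h1 : ∀ q, e ⟨t, htW⟩ * q = q * e ⟨t, htW⟩ := fun q => inj (by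
      rw [map_mul, map_mul, hψ]; exact (mem_centralizer_singleton_iff.mp (hle (hψ' q))).symm)
    rcases central _ (h1 v) (h1 y) with h | h
    · have := hψ ⟨t, htW⟩
      rw [h, map_one] at this
      rw [← show 1 = t from this, orderOf_one] at ht
      omega
    · rw [← h, hψ]
  have P : Weak ψ := by
    refine ⟨inj, fun g hg => ?_, fun g hg p => ?_, fun h => ?_, ?_⟩
    · rw [hc] at hg ⊢
      exact ⟨_, hψ ⟨_, subset_closure ⟨g, rfl, hg⟩⟩⟩
    · rw [hc] at hg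
      have : W.map (MulAut.conj g).toMonoidHom ≤ W := by
        rw [hW, MonoidHom.map_closure, closure_le]
        rintro _ ⟨_, ⟨k, rfl, hk⟩, rfl⟩
        refine subset_closure ⟨g * k, by simp [mul_assoc], ?_⟩
        show g * (k * t * k⁻¹) * g⁻¹ * t = t * (g * (k * t * k⁻¹) * g⁻¹)
        rw [mul_assoc, (Commute.inv_left hg).eq, ← mul_assoc, mul_assoc g, hk, ← mul_assoc, hg]
        group
      exact ⟨_, hψ ⟨_, this (mem_map_of_mem _ (hψ' p))⟩⟩
    · rw [hc] at h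
      exact S.not_dvd_index (h.trans (index_dvd_of_le fun a ha =>
        mem_centralizer_singleton_iff.mpr (htc a ha)))
    · rw [hc]
      by_contra h
      push Not at h
      have h1 : W ≤ zpowers t := (closure_le _).mpr fun a ⟨g, e, ha⟩ => by
        by_cases h2 : g * t * g⁻¹ = t
        · rw [e, h2]; exact mem_zpowers t
        · exact absurd (e ▸ ha) (h g h2)
      have h2 := card_dvd_of_le h1
      rw [Nat.card_zpowers, ht, Nat.card_congr e.toEquiv, X120.card] at h2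
      exact absurd h2 (by norm_num)
  exact hc ▸ P.iso

end Cfsg.Lib.J1
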